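import Cfsg.Agent.H612.Ore.SpCover
import Cfsg.Agent.H62.SpSix
import Cfsg.Agent.H6.QO.Frame
import Cfsg.Agent.StandardComponent.SpTwoAut

/-!
# The double cover of `Sp₆(2)`: every element is a commutator (S2491, S2492, row D1; helper204)

`M` (`TwoSp6.Model`, matrices over `ZMod 3`) is the double cover, `S = Sp₆(2)`.  The element `x` with the word `wX` is
conjugate to `x z`; every one of the thirty representatives of helper612's class cover, except the transvection, is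
conjugate to a commutator `[x, k]`.  The lifts of a transvection are conjugate.
-/

set_option autoImplicit false
set_option maxRecDepth 100000

namespace Cfsg.Agent.H204.QS.SpSix

open Subgroup Cfsg.Agent.H51.Mult Cfsg.Agent.H6.QO Cfsg.Agent.H777.Ore Cfsg.Agent.H612.Ore
open Cfsg.Agent.SporRec.TwoSp6.Sp (V S om tr act act_one act_mul act_ext act_add act_om act_tr enc enc_xor om_enc
  fN exists_enc v vc tr_sq closure_v card_S)
open Cfsg.Agent.SporRec.TwoSp6.Model (M gen z wv wN lt cd_wv cd_inj cd_mul wv_append wv_cons wv_nil)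
open scoped commutatorElement

/-- the conjugating words (letters of the model) -/
def hws : List (List ℕ) := [[], [], [], [3, 2, 4], [0, 5,
  6, 5, 5, 3, 4, 1, 2, 5], [3, 5, 2, 1, 5, 4, 5, 3], [3, 5, 1, 2], [3], [3, 2, 4, 1, 3], [3, 5, 4, 5], [4,
  5], [3, 4, 0, 1, 3], [5, 3, 1, 2, 6], [3, 5, 4, 5], [3, 6, 1], [4, 6, 3], [3, 2, 1], [6, 1, 0, 6, 3, 5, 1,
  4, 5, 2, 2, 6], [4, 3, 2, 6, 1, 3], [4, 3, 6, 2], [6, 4, 4, 3, 4, 0, 5, 3], [5, 3, 2, 3, 6, 4, 4, 4], [6],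
  [6], [3, 1, 4], [3, 2, 5], [0, 3, 2], [6], [3, 5, 1], [2]]

/-- the second members of the pairs (letters of the model) -/
def kws : List (List ℕ) := [[], [], [0], [0, 2,
  3], [4, 3, 2, 1, 3, 4, 5, 6, 4, 2, 3, 0, 2, 1, 3, 4, 5, 0, 2, 3, 4, 2, 3, 0, 2, 1, 3], [4, 2, 3, 0, 2, 1,
  3, 4, 5, 6, 5, 4, 3, 2, 1, 3, 4, 5, 0, 2, 3, 4, 1, 3, 0], [3, 4, 5, 6, 1, 3, 4, 2, 3, 0, 2, 1, 3, 4, 5, 1,
  3, 4, 2, 3, 0, 2, 1, 3], [3, 4, 5, 6, 2, 3, 4, 5, 3, 2, 1, 3, 4, 3, 2, 1, 3], [2, 3, 0, 2, 1, 3, 4, 5, 6,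
  2, 1, 3, 4, 5, 4, 3, 0, 2, 1, 3, 4, 0, 2, 3], [6, 2, 3, 4, 2, 3], [3, 4, 2, 3, 0, 2, 1, 3, 4, 5, 4, 3, 2,
  1, 3, 4, 0, 2, 3, 0], [6, 3, 0, 2, 1, 3, 4, 5, 1, 3, 4, 2, 3, 0, 2, 1, 3, 4, 1, 3, 0], [5, 1, 3, 4, 2, 3,
  0, 2, 1, 3, 4, 5, 6, 4, 5, 4, 3, 2, 1, 3, 4, 3, 0, 2, 1, 3, 0], [3, 4, 2, 3, 0, 2, 1, 3, 4, 5, 2, 3, 0, 2,
  1, 3, 0], [6, 5, 3, 4, 2, 3, 0, 2, 1, 3, 4, 5, 6, 1, 3, 4, 5, 3, 0, 2, 1, 3, 4, 3, 2, 1, 3, 0], [4, 5, 6,
  2, 3, 4, 5, 0, 2, 1, 3, 4, 2, 1, 3, 0], [5, 4, 3, 2, 1, 3, 4, 5, 6, 0, 2, 3, 4, 5, 3, 2, 1, 3, 0], [6, 5,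
  4, 3, 0, 2, 1, 3, 4, 5, 3, 0, 2, 1, 3], [2, 1, 3, 4, 5, 6, 3, 0, 2, 1, 3, 4, 5, 0, 2, 1, 3, 4, 2, 3, 0, 2,
  1, 3], [6, 5, 3, 4, 2, 3, 0, 2, 1, 3, 4, 5, 6, 3, 4, 5, 2, 3, 0, 2, 1, 3, 4, 3, 2, 1, 3, 0], [3, 4, 5, 6,
  4, 5, 1, 3, 4, 2, 3, 0, 2, 1, 3, 4, 3, 0], [4, 3, 0, 2, 1, 3, 4, 5, 6, 1, 3, 4, 5, 3, 0, 2, 1, 3, 4, 0, 2,
  3], [5, 4, 3, 2, 1, 3, 4, 5, 6, 3, 0, 2, 1, 3, 4, 5, 1, 3, 4, 2, 3], [5, 3, 4, 2, 3, 0, 2, 1, 3, 4, 2, 3,
  0, 2, 1, 3], [6, 5, 4, 2, 3, 0, 2, 1, 3, 4, 2, 1, 3], [3, 4, 5, 6, 4, 3, 2, 1, 3, 4, 5, 0, 2, 1, 3, 4, 2,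
  3, 0, 2, 1, 3, 0], [4, 5, 6, 2, 3, 4, 5, 3, 2, 1, 3, 4, 3, 2, 1, 3], [5, 4, 3, 0, 2, 1, 3, 4, 2, 3, 0, 2,
  1, 3], [5, 6, 5, 3, 2, 1, 3, 4, 2, 3, 0, 2, 1, 3, 0], [5, 6, 3, 2, 1, 3, 4, 5, 3, 0, 2, 1, 3]]

/-- the word of `x` -/
def wX : List ℕ := [4, 5, 0, 2, 6]

/-- the word of the element that conjugates `x` to `x z` -/
def wC : List ℕ := [1]

/-! ### Words of vectors -/

/-- product of the transvections in the vectors with the given codes -/
def tw (w : List ℕ) : S := (w.map fun c => tr (enc c)).prod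

theorem tw_nil : tw [] = 1 := rfl

theorem tw_cons (c : ℕ) (w : List ℕ) : tw (c :: w) = tr (enc c) * tw w := by
  unfold tw; rw [List.map_cons, List.prod_cons]

theorem tw_append (u w : List ℕ) : tw (u ++ w) = tw u * tw w := by
  unfold tw; rw [List.map_append, List.prod_append]

theorem tw_reverse (w : List ℕ) : tw w.reverse = (tw w)⁻¹ := by
  induction w with
  | nil => rw [List.reverse_nil, tw_nil, inv_one]
  | cons c w ih =>
    rw [List.reverse_cons, tw_append, ih, tw_cons, tw_cons, tw_nil, mul_one, mul_inv_rev,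
      inv_eq_of_mul_eq_one_right (tr_sq (enc c))]

/-- one transvection on codes -/
def sc (c v : ℕ) : ℕ := bif B6 v c then v ^^^ c else v

/-- a word on codes -/
def sw (w : List ℕ) (v : ℕ) : ℕ := w.foldr sc v

theorem ap_tr {c : ℕ} (hc : c < 64) {v : ℕ} (hv : v < 64) : spAct.ap (tr (enc c)) v = sc c v := by
  rw [spAct_ap, act_tr, sc]
  have h := B6_om hv hc
  have hlt : v ^^^ c < 64 := Nat.xor_lt_two_pow (n := 6) hv hc
  by_cases h1 : om (enc v) (enc c) = 1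
  · rw [h, decide_eq_true h1, cond_true, h1, one_smul, ← enc_xor, cd_enc _ hlt]
  · have h0 : om (enc v) (enc c) = 0 := by
      rcases Cfsg.Agent.SporRec.TwoSp6.Sp.om_cases (enc v) (enc c) with h2 | h2
      · exact h2
      · exact absurd h2 h1
    rw [h, decide_eq_false h1, cond_false, h0, zero_smul, add_zero, cd_enc _ hv]

theorem ap_tw {w : List ℕ} (hw : ∀ c ∈ w, c < 64) {v : ℕ} (hv : v < 64) : spAct.ap (tw w) v = sw w v := by
  induction w with
  | nil => exact spAct.one v hv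
  | cons c w ih =>
    have ih' := ih fun d hd => hw d (List.mem_cons_of_mem _ hd)
    rw [tw_cons, spAct.mul _ _ _ hv, ih', ap_tr (hw c List.mem_cons_self)]
    · rfl
    · rw [← ih']; exact spAct.lt _ _ hv

/-- equality of two words -/
def eqw (u w : List ℕ) : Bool :=
  (u.all fun c => Nat.blt c 64) && (w.all fun c => Nat.blt c 64) &&
    (List.range 6).all fun i => sw u (2 ^ i) == sw w (2 ^ i)

theorem tw_eq {u w : List ℕ} (h : eqw u w = true) : tw u = tw w := by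
  rw [eqw, Bool.and_eq_true, Bool.and_eq_true] at h
  have h1 : ∀ c ∈ u, c < 64 := fun c hc => Nat.le_of_ble_eq_true (List.all_eq_true.1 h.1.1 c hc)
  have h2 : ∀ c ∈ w, c < 64 := fun c hc => Nat.le_of_ble_eq_true (List.all_eq_true.1 h.1.2 c hc)
  apply spAct.ext
  intro i hi
  rw [ap_tw h1 (two_pow_lt (n := 6) hi), ap_tw h2 (two_pow_lt (n := 6) hi)]
  exact eq_of_beq (List.all_eq_true.1 h.2 i (List.mem_range.2 hi))

/-- codes of the letters of the model -/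
def vl (w : List ℕ) : List ℕ := w.map fun k => [1, 48, 8, 3, 16, 6, 32].getD k 0

/-- codes of the letters of the class cover -/
def ul (w : List ℕ) : List ℕ := w.map uc

theorem tw_ul (w : List ℕ) : tw (ul w) = wd tv w := by
  induction w with
  | nil => rfl
  | cons j w ih =>
    rw [ul, List.map_cons, tw_cons, wd, ← ih]
    rfl

/-! ### The cover -/

/-- the covering map -/
theorem exists_phi : ∃ φ : M →* S, (∀ i, φ (gen i) = tr (v i)) ∧ PCE φ ∧ Nat.card φ.ker = 2 ∧ φ.ker = zpowers z := by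
  obtain ⟨φ, hφ, hz⟩ := Cfsg.Agent.SporRec.TwoSp6.Hom.exists_hom (D := S) (z' := 1) (a' := fun i => tr (v i))
    ⟨mul_one _, fun i => tr_sq _, fun i j hij => by
      rw [one_mul]
      exact Cfsg.Agent.SporRec.TwoSp6.Sp.tr_comm (by rw [Cfsg.Agent.SporRec.TwoSp6.Sp.om_v', if_neg (by omega)]),
      fun i j hij => Cfsg.Agent.SporRec.TwoSp6.Sp.tr_braid
        (by rw [Cfsg.Agent.SporRec.TwoSp6.Sp.om_v', if_pos hij]), Cfsg.Agent.SporRec.TwoSp6.Sp.prod7_pow⟩
  have hfin : Finite M := inferInstance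
  have hsurj : Function.Surjective φ := by
    rw [← MonoidHom.range_eq_top, eq_top_iff, ← closure_v, Subgroup.closure_le]
    rintro _ ⟨i, rfl⟩
    exact ⟨_, hφ i⟩
  have hcard : Nat.card φ.ker = 2 := by
    have h2 := Subgroup.card_eq_card_quotient_mul_card_subgroup φ.ker
    rw [Nat.card_congr (QuotientGroup.quotientKerEquivOfSurjective φ hsurj).toEquiv, card_S,
      Cfsg.Agent.SporRec.TwoSp6.Order.card_M] at h2
    omega
  have hR := Cfsg.Agent.SporRec.TwoSp6.Model.rels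
  have hker : φ.ker = zpowers z := by
    symm
    refine Subgroup.eq_of_le_of_card_ge ?_ ?_
    · rw [zpowers_le]; exact hz
    · rw [hcard, Cfsg.Agent.SporRec.TwoSp6.Lift.card_zpowers hR.z_ne hR.z_sq]
  have hstem : Cfsg.IsStemExtension φ := by
    refine ⟨hsurj, ?_, ?_⟩
    · rw [hker, zpowers_le, mem_center_iff]
      intro g
      exact (hR.z_comm g).symm
    · rw [hker, zpowers_le]
      have h01 := hR.comm 0 1 (by decide)
      have : z = ⁅gen 0, gen 1⁆ := by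
        rw [commutatorElement_def, h01]; group
      rw [this, _root_.commutator_def]
      exact commutator_mem_commutator (mem_top _) (mem_top _)
  exact ⟨φ, hφ, PCE.of_stem hstem Cfsg.Agent.H62.SpSix.commutator_S, hcard, hker⟩

theorem map_wv {φ : M →* S} (hφ : ∀ i, φ (gen i) = tr (v i)) {w : List ℕ} (hw : ∀ k ∈ w, k < 7) :
    φ (wv gen z w) = tw (vl w) := by
  induction w with
  | nil => rw [wv_nil, map_one]; rfl
  | cons k w ih =>
    have hk : k < 7 := hw k List.mem_cons_self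
    have e0 : vl (k :: w) = [1, 48, 8, 3, 16, 6, 32].getD k 0 :: vl w := rfl
    rw [wv_cons, map_mul, ih fun j hj => hw j (List.mem_cons_of_mem _ hj), e0, tw_cons]
    congr 1
    have h1 : lt gen z k = gen ⟨k, hk⟩ := by
      unfold lt
      interval_cases k <;> rfl
    rw [h1, hφ]
    interval_cases k <;> rfl

/-! ### The checks -/

theorem chkX : Nat.beq (wN (wC ++ wX)) (wN (7 :: (wX ++ wC))) = true := by decide +kernel

theorem chkT : Nat.beq (wN [1, 0]) (wN [7, 0, 1]) = true := by decide +kernel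

/-- the thirty relations -/
theorem chkA : ((List.range 30).all fun i => (i == 1) ||
    eqw (vl wX ++ (vl (kws.getD i []) ++ ((vl wX).reverse ++ ((vl (kws.getD i [])).reverse ++ vl (hws.getD i [])))))
      (vl (hws.getD i []) ++ ul (rws.getD i []))) = true := by decide +kernel

theorem rel {i : ℕ} (hi : i < 30) (h1 : i ≠ 1) :
    tw (vl (hws.getD i [])) * wd tv (rws.getD i []) * (tw (vl (hws.getD i [])))⁻¹ =
      tw (vl wX) * tw (vl (kws.getD i [])) * (tw (vl wX))⁻¹ * (tw (vl (kws.getD i [])))⁻¹ := by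
  have h := List.all_eq_true.1 chkA i (List.mem_range.2 hi)
  rw [Bool.or_eq_true] at h
  rcases h with h | h
  · exact absurd (eq_of_beq h) h1
  · have h2 := tw_eq h
    rw [tw_append, tw_append, tw_append, tw_append, tw_append, tw_reverse, tw_reverse, tw_ul] at h2
    rw [← h2]
    group

theorem conj_of_words {a b : List ℕ} (h : Nat.beq (wN (a ++ b)) (wN (7 :: (b ++ a))) = true) :
    IsConj (wv gen z b) (wv gen z b * z) := by
  have h1 := Nat.eq_of_beq_eq_true h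
  rw [← cd_wv, ← cd_wv, cd_inj, wv_cons, wv_append, wv_append] at h1
  have hz : lt gen z 7 = z := by
    unfold lt; simp
  rw [hz] at h1
  have hc := Cfsg.Agent.SporRec.TwoSp6.Model.z_comm
  rw [isConj_iff]
  refine ⟨wv gen z a, ?_⟩
  have h2 := hc (wv gen z b)
  rw [h1, ← mul_assoc, h2]
  calc wv gen z b * z * wv gen z a * (wv gen z a)⁻¹ = wv gen z b * z := by group

/-- **every element of the double cover of `Sp₆(2)` is a commutator** -/
theorem allC_M : AllC M := by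
  obtain ⟨φ, hφ, hP, -, hker⟩ := exists_phi
  intro g
  have hz : ∀ ζ : M, φ ζ = 1 → ζ ∈ zpowers z := fun ζ h => by
    rw [← hker]; exact h
  have hz1 : φ z = 1 := by
    have : z ∈ φ.ker := by rw [hker]; exact mem_zpowers z
    exact this
  obtain ⟨i, hi, h, hh⟩ := exists_rep30 (φ g)
  by_cases h1 : i = 1
  · subst h1
    -- `g` is conjugate to a lift of the transvection
    obtain ⟨t, rfl⟩ := hP.surj h
    have e1 : wd tv (rws.getD 1 []) = φ (gen 0) := by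
      rw [hφ, rws_one]; rfl
    have h2 : φ (t * g * t⁻¹) = φ (gen 0) := by
      rw [map_mul, map_mul, map_inv, hh, e1]
    have h3 : (t * g * t⁻¹) * (gen 0)⁻¹ ∈ φ.ker := by
      rw [MonoidHom.mem_ker, map_mul, h2, ← map_mul, mul_inv_cancel, map_one]
    have hT : IsConj (gen 0) (gen 0 * z) := by
      have h4 := conj_of_words (a := [1]) (b := [0]) chkT
      have h5 : wv gen z [0] = gen 0 := by
        rw [wv_cons, wv_nil, mul_one]; rfl
      rwa [h5] at h4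
    have hR := Cfsg.Agent.SporRec.TwoSp6.Model.rels
    have h4 : t * g * t⁻¹ = gen 0 ∨ t * g * t⁻¹ = gen 0 * z := by
      rw [hker, Cfsg.Agent.SporRec.TwoSp6.Lift.mem_zpowers hR.z_sq] at h3
      rcases h3 with h3 | h3
      · left
        exact mul_inv_eq_one.1 h3
      · right
        rw [mul_inv_eq_iff_eq_mul] at h3
        rw [h3, hR.z_comm]
    have h5 : IsC (φ (gen 0)) := by
      rw [← e1]
      exact ⟨_, _, comm30 (by norm_num)⟩
    have h6 : IsC (gen 0) := by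
      refine isC_of_conj_all hP.surj h5 fun ζ hζ => ?_
      rcases (Cfsg.Agent.SporRec.TwoSp6.Lift.mem_zpowers hR.z_sq).1 (hz ζ hζ) with rfl | rfl
      · rw [mul_one]
      · exact hT
    have h7 : IsC (t * g * t⁻¹) := by
      rcases h4 with h4 | h4
      · rw [h4]; exact h6
      · rw [h4]; exact h6.of_isConj hT
    exact h7.of_isConj (isConj_iff.2 ⟨t, rfl⟩).symm
  · obtain ⟨t, ht⟩ := hP.surj (tw (vl (hws.getD i [])) * h)
    have hX : φ (wv gen z wX) = tw (vl wX) := map_wv hφ (by decide)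
    have h2 : φ (t * g * t⁻¹) = φ (wv gen z wX) * tw (vl (kws.getD i [])) * (φ (wv gen z wX))⁻¹ *
        (tw (vl (kws.getD i [])))⁻¹ := by
      rw [map_mul, map_mul, map_inv, ht, hX, ← rel hi h1, ← hh]
      group
    have h3 : IsC (t * g * t⁻¹) := isC_of_pair_zpowers hP.surj hP.cen hz hz1 h2 (conj_of_words chkX)
    exact h3.of_isConj (isConj_iff.2 ⟨t, rfl⟩).symm

theorem rowA_S : RowA S := by
  obtain ⟨φ, -, hP, hc, -⟩ := exists_phi
  refine RowA.of_univ (A := Multiplicative (ZMod 2)) Cfsg.Agent.H62.SpSix.hasCyclic_S hP ?_ allC_M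
  rw [hc]
  simp

/-- **row D1**: `PSp₆(2)` -/
theorem rowA_PSp {F : Type*} [Field F] [Fintype F] (hF : Fintype.card F = 2) : RowA (Cfsg.PSp 3 F) := by
  obtain ⟨e⟩ := Cfsg.Agent.StandardComponent.SpTwoAut.exists_equiv hF
  exact rowA_S.congr e.symm

end Cfsg.Agent.H204.QS.SpSix
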